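import Cfsg.Agent.H989.Cov.Pom
import Cfsg.Agent.H424.Spr.Two
import Cfsg.Agent.H159.PF.FieldUniq
import Cfsg.Agent.H905.SLProper
import Cfsg.Agent.H925.OrthNot
import Cfsg.Agent.S0296
import Cfsg.Agent.S0297

/-!
# S3938: the orthogonal groups over the field with two elements (helper637): the frame

* `spr_of_cls1`, `spr_of_cls2` : criteria with classes of coatoms;
* `center_bot`, `simple_omega`, `spr_pomega` : over `F_2` the groups `Ω(Q)` and `PΩ(Q)` agree;
* `coatom_le`, `le_coatom` : coatoms of `Ω(Q)` and groups of matrices.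
-/

set_option autoImplicit false
set_option linter.unusedSectionVars false
set_option linter.style.haveILetI false

namespace Cfsg.Agent.H637.Spr

open Module Cfsg Cfsg.Geo QuadraticMap
open Cfsg.Agent.LieClassical.OrthCore Cfsg.Agent.LieClassical.OrthForms
open Cfsg.Agent.H182.Sign
open Cfsg.Agent.H424.Spr
open Cfsg.Agent.H383.Cov
open Cfsg.Agent.H278.Cov (Red Ext Num)
open scoped MatrixGroups Matrix Pointwise

/-! ### Criteria -/

section crit

variable {L : Type*} [Group L] [IsSimpleGroup L] [Finite L]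

/-- at most one coatom through `s` -/
theorem spr_of_cls1 (hna : ∃ x y : L, x * y ≠ y * x) {s : L}
    (h : ∀ M M' : Subgroup L, IsCoatom M → IsCoatom M' → s ∈ M → s ∈ M' → M = M') : H424.Spr.Spr L := by
  by_cases hex : ∃ M : Subgroup L, IsCoatom M ∧ s ∈ M
  · obtain ⟨M, hM, hs⟩ := hex
    refine spr_of_one hna (s := s) hM.1 fun K hK hne => ?_
    obtain ⟨N, hN, hKN⟩ := (eq_top_or_exists_le_coatom K).resolve_left hne
    rw [h M N hM hN hs (hKN hK)]
    exact hKN
  · push Not at hex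
    have hbt : (⊥ : Subgroup L) ≠ ⊤ := bot_ne_top
    refine spr_of_one hna (s := s) hbt fun K hK hne => ?_
    obtain ⟨N, hN, hKN⟩ := (eq_top_or_exists_le_coatom K).resolve_left hne
    exact absurd (hKN hK) (hex N hN)

/-- at most one coatom through `s` in each of two classes -/
theorem spr_of_cls2 (hna : ∃ x y : L, x * y ≠ y * x) {s : L} (P₁ P₂ : Subgroup L → Prop)
    (hP : ∀ (M : Subgroup L) (y : L), P₁ M → P₁ (c y • M))
    (h1 : ∀ M M' : Subgroup L, IsCoatom M → IsCoatom M' → P₁ M → P₁ M' → s ∈ M → s ∈ M' → M = M')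
    (h2 : ∀ M M' : Subgroup L, IsCoatom M → IsCoatom M' → P₂ M → P₂ M' → s ∈ M → s ∈ M' → M = M')
    (h : ∀ M : Subgroup L, IsCoatom M → s ∈ M → P₁ M ∨ P₂ M) : H424.Spr.Spr L := by
  by_cases hex1 : ∃ M : Subgroup L, IsCoatom M ∧ s ∈ M ∧ P₁ M
  · by_cases hex2 : ∃ M : Subgroup L, IsCoatom M ∧ s ∈ M ∧ P₂ M
    · obtain ⟨M₁, c1, s1, p1⟩ := hex1
      obtain ⟨M₂, c2, s2, p2⟩ := hex2
      refine spr_of_two' hna (s := s) c1.1 c2.1 (fun y hy => ?_) fun K hK hne => ?_
      · exact h1 M₁ M₂ c1 c2 p1 (by rw [← hy]; exact hP _ y p1) s1 s2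
      · obtain ⟨N, hN, hKN⟩ := (eq_top_or_exists_le_coatom K).resolve_left hne
        rcases h N hN (hKN hK) with hp | hp
        · left
          rw [h1 M₁ N c1 hN p1 hp s1 (hKN hK)]
          exact hKN
        · right
          rw [h2 M₂ N c2 hN p2 hp s2 (hKN hK)]
          exact hKN
    · push Not at hex2
      refine spr_of_cls1 hna (s := s) fun M M' hM hM' hs hs' => ?_
      exact h1 M M' hM hM' ((h M hM hs).resolve_right (hex2 M hM hs)) ((h M' hM' hs').resolve_right (hex2 M' hM' hs'))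
        hs hs'
  · push Not at hex1
    refine spr_of_cls1 hna (s := s) fun M M' hM hM' hs hs' => ?_
    exact h2 M M' hM hM' ((h M hM hs).resolve_left (hex1 M hM hs)) ((h M' hM' hs').resolve_left (hex1 M' hM' hs'))
      hs hs'

end crit

/-! ### The frame -/

section frame

variable {ι : Type} [Fintype ι] [DecidableEq ι] {F : Type} [Field F] [Fintype F]

theorem two_zero (hF : Fintype.card F = 2) : (2 : F) = 0 := by
  have h := Nat.cast_card_eq_zero F
  rw [hF] at h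
  exact_mod_cast h

theorem center_bot (hF : Fintype.card F = 2) {Q : QuadraticForm F (ι → F)} (hQ : Nondeg Q) (hn : 3 ≤ Fintype.card ι)
    (hs : ∃ u : ι → F, u ≠ 0 ∧ Q u = 0) : Subgroup.center (Omega F ⇑Q) = ⊥ :=
  LieClassical.OrthCenter.center_omega_eq_bot_char_two (two_zero hF) (nondegenerate_iff_nondeg.2 hQ) hn hs

/-- over the field with two elements `Ω(Q)` is `PΩ(Q)` -/
noncomputable def omegaEquiv (hF : Fintype.card F = 2) {Q : QuadraticForm F (ι → F)} (hQ : Nondeg Q)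
    (hn : 3 ≤ Fintype.card ι) (hs : ∃ u : ι → F, u ≠ 0 ∧ Q u = 0) : POmega F ⇑Q ≃* Omega F ⇑Q :=
  (QuotientGroup.quotientMulEquivOfEq (center_bot hF hQ hn hs)).trans QuotientGroup.quotientBot

/-- transport of `PΩ` along an isometry -/
theorem pomega_congr {κ : Type} [Fintype κ] [DecidableEq κ]
    {Q : (ι → F) → F} {Q' : (κ → F) → F} (j : (ι → F) ≃ₗ[F] (κ → F)) (hj : ∀ x, Q' (j x) = Q x) :
    Nonempty (POmega F Q ≃* POmega F Q') := by
  obtain ⟨e0⟩ := LieClassical.OrthFourCommon.exists_isometryGroup_equiv j Q Q' hj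
  obtain ⟨e1⟩ := LieClassical.OrthFourCommon.exists_isometryGroup_equiv (LinearEquiv.refl F (κ → F)) Q' Q'
    (fun v => rfl)
  exact ClassicalGeometry.OddInvolutions.commutator_quot_center_congr (e0.trans e1.symm)

/-- a singular vector -/
theorem exists_sing_of {Q : QuadraticForm F (ι → F)} (hQ : Nondeg Q) (hn : 5 ≤ Fintype.card ι) :
    ∃ u : ι → F, u ≠ 0 ∧ Q u = 0 := by
  obtain ⟨x, y, h⟩ := (LieClassical.OrthFinite.good_of_finite hQ
    (by rwa [Module.finrank_fintype_fun_eq_card])).exists_hyp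
  exact ⟨x, h.left_ne, h.left⟩

theorem sg_card {Q : QuadraticForm F (ι → F)} {m : ℕ} {ε : ℤ} (hs : Sg Q m ε) : Fintype.card ι = 2 * m := by
  rw [← Module.finrank_fintype_fun_eq_card F]
  exact hs.dim

/-- **Reduction** of `Spr (PΩ(Q₀))` to `Spr (Ω(Q))` for an isometric form `Q`. -/
theorem spr_of_form (hF : Fintype.card F = 2) {m : ℕ} (hm : 3 ≤ m) {κ : Type} [Fintype κ] [DecidableEq κ]
    {Q₀ : QuadraticForm F (κ → F)} {ε : ℤ} (hs0 : Sg Q₀ m ε) (hsim : IsSimpleGroup (POmega F ⇑Q₀))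
    {Q : QuadraticForm F (ι → F)} (hs : Sg Q m ε)
    (h : IsSimpleGroup (Omega F ⇑Q) → (∃ x y : Omega F ⇑Q, x * y ≠ y * x) → H424.Spr.Spr (Omega F ⇑Q)) :
    H424.Spr.Spr (POmega F ⇑Q₀) := by
  have hn : Fintype.card ι = 2 * m := sg_card hs
  have hsing := exists_sing_of hs.nondeg (by omega)
  have hcen := center_bot hF hs.nondeg (by omega) hsing
  let e1 := omegaEquiv hF hs.nondeg (by omega) hsing
  obtain ⟨j, hj⟩ := Sg.exists_equiv hs0 hs
  obtain ⟨e2⟩ := pomega_congr j hj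
  have hs1 : IsSimpleGroup (Omega F ⇑Q) := (e2.trans e1).symm.isSimpleGroup
  refine Spr.congr (e2.trans e1).symm (h hs1 ?_)
  by_contra hcon
  push Not at hcon
  obtain ⟨x, hx⟩ := exists_ne (1 : Omega F ⇑Q)
  apply hx
  have h1 : x ∈ Subgroup.center (Omega F ⇑Q) := by
    rw [Subgroup.mem_center_iff]
    intro y
    exact hcon y x
  rw [hcen] at h1
  exact Subgroup.mem_bot.1 h1

end frame

/-! ### Maximal subgroups -/

section max

variable {ι : Type} [Fintype ι] [DecidableEq ι] {F : Type} [Field F] [Fintype F] {Q : (ι → F) → F}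

theorem map_emb_inj {M M' : Subgroup (Omega F Q)} (h : M.map (emb Q) = M'.map (emb Q)) : M = M' :=
  Subgroup.map_injective (emb_injective Q) h

theorem exists_emb {s : GL ι F} (hs : s ∈ omegaGL Q) : ∃ s' : Omega F Q, emb Q s' = s := by
  rw [← range_emb] at hs
  exact hs

theorem emb_mem (y : Omega F Q) : emb Q y ∈ omegaGL Q := by
  rw [← range_emb]
  exact ⟨y, rfl⟩

theorem map_conj (M : Subgroup (Omega F Q)) (y : Omega F Q) :
    (H424.Spr.c y • M).map (emb Q) = (M.map (emb Q)).map (MulAut.conj (emb Q y)).toMonoidHom := by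
  change (M.map (MulEquiv.toMonoidHom (H424.Spr.c y))).map (emb Q) = _
  rw [Subgroup.map_map, Subgroup.map_map]
  congr 1

/-- at most one maximal subgroup through `s` -/
theorem spr_max1 [IsSimpleGroup (Omega F Q)] (hna : ∃ x y : Omega F Q, x * y ≠ y * x) {s : GL ι F}
    (hs : s ∈ omegaGL Q)
    (h : ∀ H H' : Subgroup (GL ι F), IsMaximalIn (omegaGL Q) H → IsMaximalIn (omegaGL Q) H' → s ∈ H → s ∈ H' → H = H') :
    H424.Spr.Spr (Omega F Q) := by
  have hfin : Finite (Omega F Q) := Finite.of_injective _ (emb_injective Q)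
  obtain ⟨s', rfl⟩ := exists_emb hs
  refine spr_of_cls1 hna (s := s') fun M M' hM hM' h1 h2 => map_emb_inj ?_
  exact h _ _ (H989.Cov.isMaximalIn_map hM) (H989.Cov.isMaximalIn_map hM') ⟨_, h1, rfl⟩ ⟨_, h2, rfl⟩

/-- at most one maximal subgroup through `s` in each of two classes -/
theorem spr_max2 [IsSimpleGroup (Omega F Q)] (hna : ∃ x y : Omega F Q, x * y ≠ y * x) {s : GL ι F}
    (hs : s ∈ omegaGL Q) (P₁ P₂ : Subgroup (GL ι F) → Prop)
    (hP : ∀ (H : Subgroup (GL ι F)) (g : GL ι F), P₁ H → P₁ (H.map (MulAut.conj g).toMonoidHom))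
    (h1 : ∀ H H' : Subgroup (GL ι F), IsMaximalIn (omegaGL Q) H → IsMaximalIn (omegaGL Q) H' → P₁ H → P₁ H' →
      s ∈ H → s ∈ H' → H = H')
    (h2 : ∀ H H' : Subgroup (GL ι F), IsMaximalIn (omegaGL Q) H → IsMaximalIn (omegaGL Q) H' → P₂ H → P₂ H' →
      s ∈ H → s ∈ H' → H = H')
    (h : ∀ H : Subgroup (GL ι F), IsMaximalIn (omegaGL Q) H → s ∈ H → P₁ H ∨ P₂ H) :
    H424.Spr.Spr (Omega F Q) := by
  have hfin : Finite (Omega F Q) := Finite.of_injective _ (emb_injective Q)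
  obtain ⟨s', rfl⟩ := exists_emb hs
  refine spr_of_cls2 hna (s := s') (fun M => P₁ (M.map (emb Q))) (fun M => P₂ (M.map (emb Q)))
    (fun M y hM => ?_) (fun M M' hM hM' p p' g g' => map_emb_inj ?_) (fun M M' hM hM' p p' g g' => map_emb_inj ?_)
    fun M hM hs' => ?_
  · rw [map_conj]
    exact hP _ _ hM
  · exact h1 _ _ (H989.Cov.isMaximalIn_map hM) (H989.Cov.isMaximalIn_map hM') p p' ⟨_, g, rfl⟩ ⟨_, g', rfl⟩
  · exact h2 _ _ (H989.Cov.isMaximalIn_map hM) (H989.Cov.isMaximalIn_map hM') p p' ⟨_, g, rfl⟩ ⟨_, g', rfl⟩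
  · exact h _ (H989.Cov.isMaximalIn_map hM) ⟨_, hs', rfl⟩

end max

/-! ### Irreducible elements and fields -/

section field

variable {ι : Type} [Fintype ι] [DecidableEq ι] {F : Type} [Field F] [Fintype F] {Q : (ι → F) → F}

/-- `H` normalises a field of degree `r` -/
def Fld (r : ℕ) (H : Subgroup (GL ι F)) : Prop :=
  ∃ E : Subalgebra F (Matrix ι ι F), IsFieldSubalgebra r E ∧ H ≤ subalgebraNormalizer E

theorem Fld.conj {r : ℕ} {H : Subgroup (GL ι F)} (h : Fld r H) (g : GL ι F) :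
    Fld r (H.map (MulAut.conj g).toMonoidHom) := by
  obtain ⟨E, hE, hH⟩ := h
  refine ⟨_, H159.PF.conj_fieldSub hE g, ?_⟩
  rintro _ ⟨x, hx, rfl⟩
  rw [H159.PF.mem_normalizer_conj]
  change g⁻¹ * (g * x * g⁻¹) * g ∈ _
  have e : g⁻¹ * (g * x * g⁻¹) * g = x := by group
  rw [e]
  exact hH hx

/-- maximal subgroups through an irreducible element normalising fields of the same degree agree -/
theorem Fld.unique [Nonempty ι] (hQ : IsNondegenerateQuadraticForm Q) (hn : 5 ≤ Fintype.card ι) {s : GL ι F}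
    (hirr : ∀ W : Submodule F (ι → F), (∀ v ∈ W, (s : Matrix ι ι F) *ᵥ v ∈ W) → W = ⊥ ∨ W = ⊤) {r : ℕ} (hr : 2 ≤ r)
    (hco : (orderOf s).Coprime r) {H H' : Subgroup (GL ι F)} (hH : IsMaximalIn (omegaGL Q) H)
    (hH' : IsMaximalIn (omegaGL Q) H') (h : Fld r H) (h' : Fld r H') (hs : s ∈ H) (hs' : s ∈ H') : H = H' := by
  obtain ⟨E, hE, hHE⟩ := h
  obtain ⟨E', hE', hHE'⟩ := h'
  have h1 := H925.eq_inf_of_isMaximalIn hH hHE (H925.omegaGL_not_le_subalgebraNormalizer hQ hn hr hE)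
  have h2 := H925.eq_inf_of_isMaximalIn hH' hHE' (H925.omegaGL_not_le_subalgebraNormalizer hQ hn hr hE')
  have h3 : E = E' := H159.PF.fieldSub_unique hirr (by omega) hE hE'
    (fun k hk => comm_of_coprime hE (hHE hs) hco hk) (fun k hk => comm_of_coprime hE' (hHE' hs') hco hk)
  rw [h1, h2, h3]

/-- an irreducible element all of whose maximal overgroups normalise fields of degree `r₁` or `r₂` -/
theorem spr_of_irr [Nonempty ι] [IsSimpleGroup (Omega F Q)] (hna : ∃ x y : Omega F Q, x * y ≠ y * x)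
    (hQ : IsNondegenerateQuadraticForm Q) (hn : 5 ≤ Fintype.card ι) {s : GL ι F} (hs : s ∈ omegaGL Q)
    (hd : Dims s {0, Fintype.card ι}) {r₁ r₂ : ℕ} (hr₁ : 2 ≤ r₁) (hr₂ : 2 ≤ r₂)
    (hco₁ : (orderOf s).Coprime r₁) (hco₂ : (orderOf s).Coprime r₂)
    (h : ∀ H : Subgroup (GL ι F), IsMaximalIn (omegaGL Q) H → s ∈ H → Fld r₁ H ∨ Fld r₂ H) :
    H424.Spr.Spr (Omega F Q) := by
  have hirr : ∀ W : Submodule F (ι → F), (∀ v ∈ W, (s : Matrix ι ι F) *ᵥ v ∈ W) → W = ⊥ ∨ W = ⊤ := by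
    intro W hW
    rcases hd W hW with h1 | h1
    · exact Or.inl (Submodule.finrank_eq_zero.1 h1)
    · right
      apply Submodule.eq_top_of_finrank_eq
      rw [Module.finrank_fintype_fun_eq_card]
      exact h1
  exact spr_max2 hna hs (Fld r₁) (Fld r₂) (fun H g hH => hH.conj g)
    (fun H H' hH hH' p p' g g' => Fld.unique hQ hn hirr hr₁ hco₁ hH hH' p p' g g')
    (fun H H' hH hH' p p' g g' => Fld.unique hQ hn hirr hr₂ hco₂ hH hH' p p' g g') h

end field

end Cfsg.Agent.H637.Spr
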