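import Cfsg.Agent.H637.Spr.Twelve
import Cfsg.Agent.H558.Cov.OgO
import Cfsg.Agent.H906.Cov.Num

/-!
# S3938: `Ω⁺₂₂(2)`, `Ω⁻₂₄(2)` (helper637)

* `spr_plus_22` : `neg 7 + neg 4`, one maximal overgroup;
* `spr_minus_24` : `neg 12`, at most two maximal overgroups, normalising fields of degrees 2 and 3.
-/

set_option autoImplicit false
set_option linter.unusedSectionVars false
set_option linter.style.haveILetI false

namespace Cfsg.Agent.H637.Spr

open Module Cfsg Cfsg.Geo QuadraticMap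
open Cfsg.Agent.LieClassical.OrthCore Cfsg.Agent.LieClassical.OrthForms
open Cfsg.Agent.H182.Sign
open Cfsg.Agent.H383.Cov
open Cfsg.Agent.H278.Cov (Red Ext Num)
open Cfsg.Agent.H989.Cov (Bn)
open Cfsg.Agent.H659.CovCore (S5948Stmt)
open scoped MatrixGroups Matrix Pointwise

variable {ι : Type} [Fintype ι] [DecidableEq ι] {F : Type} [Field F] [Fintype F]

theorem sim_swap {V₁ V₂ : Type} [AddCommGroup V₁] [Module F V₁] [AddCommGroup V₂] [Module F V₂] {X : GL ι F}
    {x : Module.End F V₁} {y : Module.End F V₂} (h : Sim X (x.prodMap y : Module.End F (V₁ × V₂))) :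
    Sim X (y.prodMap x : Module.End F (V₂ × V₁)) := by
  obtain ⟨e, he⟩ := h
  refine ⟨e.trans (LinearEquiv.prodComm F V₁ V₂), fun v => ?_⟩
  change (e ((X : Matrix ι ι F) *ᵥ v)).swap = _
  rw [he]
  rfl

/-- elements `neg a + neg b`, with both powers -/
theorem exists_two {Q : QuadraticForm F (ι → F)} {a b m M N : ℕ} (hQ : Sg Q m 1) (hm : a + b = m) (h3 : 3 ≤ m)
    (ha : a ≠ 0) (hb : b ≠ 0) (hM : M ∣ Fintype.card F ^ a + 1) (hMo : Odd M) (hM1 : M ≠ 1)
    (hMi : ∀ j, 1 ≤ j → j < 2 * a → ¬ M ∣ Fintype.card F ^ j - 1)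
    (hN : N ∣ Fintype.card F ^ b + 1) (hNo : Odd N) (hN1 : N ≠ 1)
    (hNi : ∀ j, 1 ≤ j → j < 2 * b → ¬ N ∣ Fintype.card F ^ j - 1) (hc : M.Coprime N) :
    ∃ A : GL ι F, A ∈ omegaGL ⇑Q ∧ Odd (orderOf A) ∧ Dims A {0, 2 * b, 2 * a, 2 * m} ∧
      (Bn (Nat.card F) (2 * a) M → ∃ i, orderOf (A ^ i) = M ∧ Blk (2 * a) (A ^ i)) ∧
      (Bn (Nat.card F) (2 * b) N → ∃ i, orderOf (A ^ i) = N ∧ Blk (2 * b) (A ^ i)) := by
  obtain ⟨L, _, _, _, Q₁, u, s1, s2, s3, s4, s5⟩ := exists_negN (F := F) ha hM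
  obtain ⟨L', _, _, _, Q₂, u', t1, t2, t3, t4, t5⟩ := exists_negN (F := F) hb hN
  have hfL : FiniteDimensional F L := Module.Finite.of_finite
  have hfL' : FiniteDimensional F L' := Module.Finite.of_finite
  have hs := s1.prod t1
  rw [hm, show (-1 : ℤ) * -1 = 1 by norm_num] at hs
  have p1 : (LinearMap.mulLeft F u : Module.End F L) ^ M = 1 := by
    rw [mulLeft_pow, mulLeft_eq_one, ← s3, pow_orderOf_eq_one]
  have p2 : (LinearMap.mulLeft F u' : Module.End F L') ^ N = 1 := by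
    rw [mulLeft_pow, mulLeft_eq_one, ← t3, pow_orderOf_eq_one]
  have hpow : ((LinearMap.mulLeft F u).prodMap (LinearMap.mulLeft F u') : Module.End F (L × L')) ^ (M * N) = 1 := by
    rw [pair_pow, pow_mul, p1, one_pow, mul_comm, pow_mul, p2, one_pow]
    rfl
  have hcard := sg_card hQ
  obtain ⟨A, hA, hsim⟩ := exists_sim hQ (by omega) hs
    (x := (LinearMap.mulLeft F u).prodMap (LinearMap.mulLeft F u')) (M := M * N)
    (by
      intro v
      rw [prodForm_apply, prodForm_apply]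
      change Q₁ (u * v.1) + Q₂ (u' * v.2) = _
      rw [s5, t5])
    (hMo.mul hNo) hpow
  refine ⟨A, hA, ?_, ?_, ?_, ?_⟩
  · refine Odd.of_dvd_nat (hMo.mul hNo) ?_
    rw [hsim.orderOf_eq]
    exact orderOf_dvd_of_pow_eq_one hpow
  · apply hsim.dims
    intro W hW
    obtain ⟨s, hs', t, ht', hst⟩ := pair_dims p1 p2 hc (mulLeft_free (ne_one_of_order s3 hM1))
      (Ten.irr_case s2 s4 (by rw [s3]; exact hMi)) (Ten.irr_case t2 t4 (by rw [t3]; exact hNi)) hW
    rw [hst]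
    simp only [Set.mem_insert_iff, Set.mem_singleton_iff] at hs' ht' ⊢
    omega
  · intro hB
    obtain ⟨j, hj1, hj2⟩ := exists_pow_left p1 p2 hc
    have h1 := hsim.pow j
    rw [pair_pow, hj1, hj2] at h1
    exact ⟨j, H989.Cov.blk_of_pair hB s3 s2 h1⟩
  · intro hB
    obtain ⟨j, hj1, hj2⟩ := exists_pow_right p1 p2 hc
    have h1 := hsim.pow j
    rw [pair_pow, hj1, hj2] at h1
    exact ⟨j, H989.Cov.blk_of_pair hB t3 t2 (sim_swap h1)⟩

theorem bn_of_num {n k M : ℕ} (h : Num (Fintype.card F) n k M) (hd : M.Coprime (Fintype.card F)) :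
    Bn (Nat.card F) k M := by
  rw [Nat.card_eq_fintype_card]
  refine ⟨?_, hd, fun i h1 h2 => h.prim i h1 h2⟩
  have := h.big
  omega

theorem num_not_dvd {n k M : ℕ} (h : Num (Fintype.card F) n k M) :
    ∀ j, 1 ≤ j → j < k → ¬ M ∣ Fintype.card F ^ j - 1 := by
  intro j h1 h2 h3
  have h4 := h.prim j h1 h2
  have h5 := Nat.dvd_gcd dvd_rfl h3
  rw [h4] at h5
  have := h.big
  have := Nat.dvd_one.1 h5
  omega

/-- **`Ω⁺₂₂(2)`.** -/
theorem spr_plus_22 (hP : S5948Stmt.{0}) (hF : Fintype.card F = 2) :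
    H424.Spr.Spr (POmega F (quadFormPlus 11 F)) := by
  have hsim : IsSimpleGroup (POmega F ⇑(plusForm 11 F)) := by
    rw [coe_plusForm]
    exact S0296.result 11 (by norm_num)
  have hs : Sg (plusForm 11 F) 11 1 := sg_plusForm (F := F) 11
  rw [← coe_plusForm]
  refine spr_of_form hF (by norm_num) hs hsim hs fun hs1 hna => ?_
  have hn : Fintype.card (Fin 11 ⊕ Fin 11) = 22 := by simp
  have hQ' : IsNondegenerateQuadraticForm ⇑(plusForm 11 F) := isNondeg hs.nondeg
  have h5 : 5 ≤ Fintype.card (Fin 11 ⊕ Fin 11) := by rw [hn]; norm_num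
  have hpp : IsPrimePow (Fintype.card F) := Fintype.isPrimePow_card_of_field
  have hq : 2 ≤ Fintype.card F := Fintype.one_lt_card
  obtain ⟨M, hM⟩ := H906.Cov.exists_num (n := 22) (k := 14) hpp (by norm_num) (by norm_num) (by norm_num)
    (by norm_num) (by norm_num)
  have hMd : M ∣ Fintype.card F ^ 7 + 1 := num_dvd (a := 7) (by norm_num) hM
  have hMo := num_odd hq (by norm_num) hM
  have hMq := coprime_q (a := 7) (by norm_num) hMd
  have hbig := hM.big
  have hM17 : M.Coprime 17 := by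
    have h1 := hM.prim 8 (by norm_num) (by norm_num)
    rw [hF] at h1
    exact Nat.Coprime.coprime_dvd_right (by norm_num) h1
  obtain ⟨A, hA, oA, dA, bA, bA'⟩ := exists_two (a := 7) (b := 4) (m := 11) (M := M) (N := 17) hs rfl (by norm_num)
    (by norm_num) (by norm_num) hMd hMo (by omega) (num_not_dvd hM) (by rw [hF]; norm_num) (by decide) (by norm_num)
    (by
      rw [hF]
      intro j h1 h2
      interval_cases j <;> decide) hM17
  obtain ⟨i, o1, b1⟩ := bA (bn_of_num hM hMq)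
  obtain ⟨j, o2, b2⟩ := bA' (H989.Cov.bn_of hF H989.Cov.bn_17)
  have hFc : Nat.card F = 2 := by rw [Nat.card_eq_fintype_card, hF]
  refine spr_of_two_dims' hs.nondeg hna h5 hA (k := 8) (by norm_num) (by rw [hn]; norm_num) (by rw [hn]; norm_num)
    (by rw [hn]; exact dA) fun H hH hAH => ?_
  by_contra hR
  rcases H558.Cov.og_o hP hQ' hH.1.le hH.1.ne (H.pow_mem hAH i) (k := 14) (by rw [o1, hn]; exact hM) with
    h | ⟨r, E, hr, hrd, hE, hN⟩
  · exact hR h
  · rw [hn] at hrd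
    have h2 : r ∣ 2 := hrd
    obtain rfl := (Nat.prime_dvd_prime_iff_eq hr Nat.prime_two).1 h2
    refine parity hQ' (hH.1.le.trans (omegaGL_le _)) hR hE hN (H.pow_mem hAH j) (H.pow_mem hAH i) (a := 4) (b := 7)
      (by norm_num) (by norm_num) (by decide) (by decide) ?_ ?_ ?_ ?_ b2 b1
    · rw [o2]; decide
    · rw [o1]; exact hMo
    · rw [o2, hFc]; norm_num
    · rw [o1, Nat.card_eq_fintype_card]; exact hMd

/-- **`Ω⁻₂₄(2)`.** -/
theorem spr_minus_24 (hP : S5948Stmt.{0}) (hF : Fintype.card F = 2) {a b : F}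
    (hab : ∀ z₁ z₂ : F, z₁ ^ 2 + a * z₁ * z₂ + b * z₂ ^ 2 = 0 → z₁ = 0 ∧ z₂ = 0) :
    H424.Spr.Spr (POmega F (quadFormMinus 11 F a b)) := by
  have hsim : IsSimpleGroup (POmega F ⇑(minusForm 11 F a b)) := by
    rw [coe_minusForm]
    exact S0297.result (F := F) 12 (by norm_num) a b hab
  have hs : Sg (minusForm 11 F a b) 12 (-1) := sg_minusForm (F := F) 11 hab
  rw [← coe_minusForm]
  refine spr_of_form hF (by norm_num) hs hsim hs fun hs1 hna => ?_
  have hn : Fintype.card ((Fin 11 ⊕ Fin 11) ⊕ Fin 2) = 24 := by simp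
  have hQ' : IsNondegenerateQuadraticForm ⇑(minusForm 11 F a b) := isNondeg hs.nondeg
  have h5 : 5 ≤ Fintype.card ((Fin 11 ⊕ Fin 11) ⊕ Fin 2) := by rw [hn]; norm_num
  have hpp : IsPrimePow (Fintype.card F) := Fintype.isPrimePow_card_of_field
  have hq : 2 ≤ Fintype.card F := Fintype.one_lt_card
  obtain ⟨M, hM⟩ := H906.Cov.exists_num (n := 24) (k := 24) hpp (by norm_num) (by norm_num) (by norm_num)
    (by norm_num) (by norm_num)
  have hMd : M ∣ Fintype.card F ^ 12 + 1 := num_dvd (a := 12) (by norm_num) hM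
  have hMo := num_odd hq (by norm_num) hM
  have hMq := coprime_q (a := 12) (by norm_num) hMd
  have hM3 : M.Coprime 3 := by
    have h1 := hM.prim 2 (by norm_num) (by norm_num)
    rw [hF] at h1
    exact h1
  obtain ⟨A, hA, oA, ⟨o1, b1⟩, dA⟩ := exists_irr hs (by norm_num) (N := M) (c := 1) (M := M) (one_mul M).symm
    hMd hMo (num_not_dvd hM) (bn_of_num hM hMq) one_ne_zero
  refine spr_of_irr hna hQ' h5 hA (by rw [hn]; exact dA) (r₁ := 2) (r₂ := 3) le_rfl (by norm_num)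
    (by rw [oA]; exact Nat.coprime_two_right.2 hMo) (by rw [oA]; exact hM3) fun H hH hAH => ?_
  rcases H558.Cov.og_o hP hQ' hH.1.le hH.1.ne hAH (k := 24) (by rw [oA, hn]; exact hM) with
    h | ⟨r, E, hr, hrd, hE, hN⟩
  · exfalso
    refine red_dims h hAH hAH dA dA fun d h0 h10 h3 _ => ?_
    rw [hn] at h10
    simp only [Set.mem_insert_iff, Set.mem_singleton_iff] at h3
    omega
  · rw [hn] at hrd
    have h1 : r ∣ 2 ^ 3 * 3 := hrd
    rcases (Nat.Prime.dvd_mul hr).1 h1 with h2 | h2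
    · obtain rfl := (Nat.prime_dvd_prime_iff_eq hr Nat.prime_two).1 (hr.dvd_of_dvd_pow h2)
      exact Or.inl ⟨E, hE, hN⟩
    · obtain rfl := (Nat.prime_dvd_prime_iff_eq hr Nat.prime_three).1 h2
      exact Or.inr ⟨E, hE, hN⟩

end Cfsg.Agent.H637.Spr
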