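import Cfsg.Agent.H637.Spr.Base
import Cfsg.Agent.H212.Cov.Om10
import Cfsg.Agent.H383.Cov.TenTwo

/-!
# S3938: `Ω⁺₁₀(2)`, `Ω⁻₁₀(2)`, `Ω⁻₁₂(2)` (helper637)

* `spr_plus_ten` : `neg 4 + neg 1` (order 51), one maximal overgroup;
* `spr_minus_ten` : `neg 5` (order 33), one maximal overgroup;
* `spr_minus_twelve` : `neg 6` (order 65), at most two maximal overgroups, normalising fields of degrees 2 and 3.
-/

set_option autoImplicit false
set_option linter.unusedSectionVars false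
set_option linter.style.haveILetI false

namespace Cfsg.Agent.H637.Spr

open Module Cfsg Cfsg.Geo QuadraticMap
open Cfsg.Agent.LieClassical.OrthCore Cfsg.Agent.LieClassical.OrthForms
open Cfsg.Agent.H182.Sign
open Cfsg.Agent.H383.Cov
open Cfsg.Agent.H278.Cov (Red Ext Num)
open scoped MatrixGroups Matrix Pointwise

variable {ι : Type} [Fintype ι] [DecidableEq ι] {F : Type} [Field F] [Fintype F]

/-! ### Types -/

theorem plusOn {Q : QuadraticForm F (ι → F)} {m : ℕ} (hs : Sg Q m 1) : IsPlusTypeOn (⇑Q) ⊤ := by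
  obtain ⟨e, he⟩ := Sg.exists_equiv (sg_plusForm (F := F) m) hs
  have h1 : H955.IsPlus Q := by
    apply H955.IsPlus.of_equiv (Q := LieClassical.QuadForms.plusForm m F) e _ (H955.isPlus_plus m)
    intro v
    rw [he, H403.Classify.plusForm_eq]
  obtain ⟨U, hU0, hd⟩ := h1
  exact ⟨U, le_top, fun u hu => hU0 u hu, by rw [finrank_top]; exact hd⟩

theorem not_plusOn {Q : QuadraticForm F (ι → F)} {m : ℕ} (hs : Sg Q m (-1)) : ¬ IsPlusTypeOn (⇑Q) ⊤ := by
  rintro ⟨U, -, hU0, hd⟩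
  have h1 : H955.IsPlus Q := ⟨U, fun u hu => hU0 u hu, by rw [hd, finrank_top]⟩
  obtain ⟨e, he⟩ := H955.exists_plus_equiv m Q hs.nondeg hs.dim h1
  have h2 : Sg Q m 1 := by
    refine (sg_plusForm (F := F) m).congr e.symm fun v => ?_
    rw [← he, e.apply_symm_apply, H403.Classify.plusForm_eq]
  have h3 := (hs.sign.unique h2.sign hs.eps h2.eps).2
  norm_num at h3

/-! ### Two blocks -/

/-- an element with invariant subspaces of dimensions `0, k, n - k, n`, all of whose maximal overgroups are reducible -/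
theorem spr_of_two_dims' {Q : QuadraticForm F (ι → F)} (hQ : Nondeg Q) [IsSimpleGroup (Omega F ⇑Q)]
    (hna : ∃ x y : Omega F ⇑Q, x * y ≠ y * x) (hn : 5 ≤ Fintype.card ι) {s : GL ι F} (hs : s ∈ omegaGL ⇑Q)
    {k : ℕ} (hk0 : 0 < k) (hk : 2 * k < Fintype.card ι) (hk3 : 3 * k ≠ Fintype.card ι) (hd : Dims s {0, k, Fintype.card ι - k, Fintype.card ι})
    (h : ∀ H : Subgroup (GL ι F), IsMaximalIn (omegaGL ⇑Q) H → s ∈ H → Red H) : H424.Spr.Spr (Omega F ⇑Q) := by
  have hQ' : IsNondegenerateQuadraticForm ⇑Q := isNondeg hQ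
  -- every maximal overgroup stabilises an invariant subspace of dimension `k`
  have key : ∀ H : Subgroup (GL ι F), IsMaximalIn (omegaGL ⇑Q) H → s ∈ H →
      ∃ W : Submodule F (ι → F), finrank F W = k ∧ (∀ w ∈ W, (s : Matrix ι ι F) *ᵥ w ∈ W) ∧
        H = subspaceStabilizer W ⊓ omegaGL ⇑Q := by
    intro H hH hsH
    have hiso : H ≤ isometryGroup F ⇑Q := hH.1.le.trans (omegaGL_le _)
    obtain ⟨W, hW0, hW1, hW⟩ := h H hH hsH
    have hinv : ∀ z ∈ H, ∀ w ∈ W, (z : Matrix ι ι F) *ᵥ w ∈ W := fun z hz w hw => (hW hz w).1 hw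
    have fin : ∀ W : Submodule F (ι → F), (∀ z ∈ H, ∀ w ∈ W, (z : Matrix ι ι F) *ᵥ w ∈ W) → finrank F W = k →
        ∃ W : Submodule F (ι → F), finrank F W = k ∧ (∀ w ∈ W, (s : Matrix ι ι F) *ᵥ w ∈ W) ∧
          H = subspaceStabilizer W ⊓ omegaGL ⇑Q := by
      intro W hW hWk
      refine ⟨W, hWk, hW s hsH, H925.eq_inf_of_isMaximalIn hH (fun z hz v => ⟨hW z hz v, fun hv => ?_⟩) ?_⟩
      · have h1 := hW z⁻¹ (H.inv_mem hz) _ hv
        change ((z⁻¹ : GL ι F) : Matrix ι ι F) *ᵥ ((z : Matrix ι ι F) *ᵥ v) ∈ W at h1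
        rwa [Matrix.mulVec_mulVec, ← Units.val_mul, inv_mul_cancel, Units.val_one, Matrix.one_mulVec] at h1
      · apply H925.omegaGL_not_le_subspaceStabilizer hQ' hn
        · rintro rfl
          rw [finrank_bot] at hWk
          omega
        · rintro rfl
          rw [finrank_top, Module.finrank_fintype_fun_eq_card] at hWk
          omega
    have h1 := hd W (hinv s hsH)
    simp only [Set.mem_insert_iff, Set.mem_singleton_iff] at h1
    rcases h1 with h1 | h1 | h1 | h1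
    · exact absurd (Submodule.finrank_eq_zero.1 h1) hW0
    · exact fin W hinv h1
    · refine fin (H989.Cov.prp Q W) (fun z hz => H989.Cov.prp_inv (hiso hz) (hinv _ (H.inv_mem hz))) ?_
      rw [H989.Cov.finrank_prp hQ, h1]
      omega
    · exfalso
      apply hW1
      apply Submodule.eq_top_of_finrank_eq
      rw [Module.finrank_fintype_fun_eq_card]
      exact h1
  refine spr_max1 hna hs fun H H' hH hH' g g' => ?_
  obtain ⟨W, h1, h2, h3⟩ := key H hH g
  obtain ⟨W', h1', h2', h3'⟩ := key H' hH' g'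
  have h4 : W = W' := by
    have h5 := hd (W ⊔ W') (by
      intro w hw
      obtain ⟨a, ha, b, hb, rfl⟩ := Submodule.mem_sup.1 hw
      rw [Matrix.mulVec_add]
      exact Submodule.add_mem_sup (h2 a ha) (h2' b hb))
    have h5' := hd (W ⊓ W') (fun w hw => ⟨h2 w hw.1, h2' w hw.2⟩)
    have h6 := Submodule.finrank_sup_add_finrank_inf_eq W W'
    have h7 := Submodule.finrank_mono (inf_le_left : W ⊓ W' ≤ W)
    rw [h1] at h7
    rw [h1, h1'] at h6
    simp only [Set.mem_insert_iff, Set.mem_singleton_iff] at h5 h5'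
    have h8 : finrank F ↥(W ⊔ W') = k := by omega
    rw [Submodule.eq_of_le_of_finrank_eq (le_sup_left : W ≤ W ⊔ W') (by rw [h1, h8])]
    exact (Submodule.eq_of_le_of_finrank_eq (le_sup_right : W' ≤ W ⊔ W') (by rw [h1', h8])).symm
  rw [h3, h3', h4]

theorem spr_of_two_dims {Q : QuadraticForm F (ι → F)} (hQ : Nondeg Q) [IsSimpleGroup (Omega F ⇑Q)]
    (hna : ∃ x y : Omega F ⇑Q, x * y ≠ y * x) (hn : 5 ≤ Fintype.card ι) {s : GL ι F} (hs : s ∈ omegaGL ⇑Q)
    {k : ℕ} (hk0 : 0 < k) (hk : 3 * k < Fintype.card ι) (hd : Dims s {0, k, Fintype.card ι - k, Fintype.card ι})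
    (h : ∀ H : Subgroup (GL ι F), IsMaximalIn (omegaGL ⇑Q) H → s ∈ H → Red H) : H424.Spr.Spr (Omega F ⇑Q) :=
  spr_of_two_dims' hQ hna hn hs hk0 (by omega) (by omega) hd h

/-! ### `Ω⁺₁₀(2)` -/

theorem spr_plus_ten (hR : Ten.S5848Stmt) (hF : Fintype.card F = 2) : H424.Spr.Spr (POmega F (quadFormPlus 5 F)) := by
  have hsim : IsSimpleGroup (POmega F ⇑(plusForm 5 F)) := by
    rw [coe_plusForm]
    exact S0296.result 5 (by norm_num)
  let e : Fin 5 ⊕ Fin 5 ≃ Fin 10 := Fintype.equivFinOfCardEq (by simp)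
  let j : (Fin 5 ⊕ Fin 5 → F) ≃ₗ[F] (Fin 10 → F) := LinearEquiv.funCongrLeft F F e.symm
  let Q : QuadraticForm F (Fin 10 → F) := (plusForm 5 F).comp (j.symm : (Fin 10 → F) →ₗ[F] (Fin 5 ⊕ Fin 5 → F))
  have hs : Sg Q 5 1 := (sg_plusForm (F := F) 5).congr j fun v => by
    change plusForm 5 F (j.symm (j v)) = _
    rw [j.symm_apply_apply]
  rw [← coe_plusForm]
  refine spr_of_form hF (by norm_num) (sg_plusForm 5) hsim hs fun hs1 hna => ?_
  have hn : Fintype.card (Fin 10) = 10 := Fintype.card_fin 10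
  have hQ' : IsNondegenerateQuadraticForm ⇑Q := isNondeg hs.nondeg
  have h5 : 5 ≤ Fintype.card (Fin 10) := by rw [hn]; norm_num
  obtain ⟨A, hA, -, dA⟩ := Ten.exNN (a := 4) (e := 1) (M := 17) (N := 3) hs h5 rfl (by norm_num) (by norm_num)
    (by rw [hF]; norm_num) (by decide) (by
      rw [hF]
      intro j h1 h2
      interval_cases j <;> decide) (by rw [hF]; norm_num) (by decide) (by
      rw [hF]
      intro j h1 h2
      interval_cases j; decide) (by decide)
  exact spr_of_two_dims hs.nondeg hna h5 hA (k := 2) (by norm_num) (by rw [hn]; norm_num) (by rw [hn]; exact dA)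
    fun H hH _ => Ten.red_two hR hQ' (plusOn hs) hF hH.1.le hH.1.ne

/-! ### `Ω⁻₁₀(2)` -/

theorem spr_minus_ten (hR : H212.Cov.Om10.S5851Stmt) (hF : Fintype.card F = 2) {a b : F}
    (hab : ∀ z₁ z₂ : F, z₁ ^ 2 + a * z₁ * z₂ + b * z₂ ^ 2 = 0 → z₁ = 0 ∧ z₂ = 0) :
    H424.Spr.Spr (POmega F (quadFormMinus 4 F a b)) := by
  have hsim : IsSimpleGroup (POmega F ⇑(minusForm 4 F a b)) := by
    rw [coe_minusForm]
    exact S0297.result (F := F) 5 (by norm_num) a b hab
  let e : (Fin 4 ⊕ Fin 4) ⊕ Fin 2 ≃ Fin 10 := Fintype.equivFinOfCardEq (by simp)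
  let j : ((Fin 4 ⊕ Fin 4) ⊕ Fin 2 → F) ≃ₗ[F] (Fin 10 → F) := LinearEquiv.funCongrLeft F F e.symm
  let Q : QuadraticForm F (Fin 10 → F) :=
    (minusForm 4 F a b).comp (j.symm : (Fin 10 → F) →ₗ[F] ((Fin 4 ⊕ Fin 4) ⊕ Fin 2 → F))
  have hs : Sg Q 5 (-1) := (sg_minusForm (F := F) 4 hab).congr j fun v => by
    change minusForm 4 F a b (j.symm (j v)) = _
    rw [j.symm_apply_apply]
  rw [← coe_minusForm]
  refine spr_of_form hF (by norm_num) (sg_minusForm 4 hab) hsim hs fun hs1 hna => ?_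
  have hn : Fintype.card (Fin 10) = 10 := Fintype.card_fin 10
  have hQ' : IsNondegenerateQuadraticForm ⇑Q := isNondeg hs.nondeg
  have h5 : 5 ≤ Fintype.card (Fin 10) := by rw [hn]; norm_num
  obtain ⟨A, hA, oA, dA, bA⟩ := H212.Cov.Om10.exA hs hn hF
  have dA1 : Dims A {0, 10} := H212.Cov.Om10.Dims.of_pow dA
  have oA3 : orderOf (A ^ 3) = 11 := by
    rw [orderOf_pow_of_dvd (by norm_num) (by rw [oA]; norm_num), oA]
  refine spr_of_irr hna hQ' h5 hA (by rw [hn]; exact dA1) (r₁ := 2) (r₂ := 2) le_rfl le_rfl (by rw [oA]; norm_num)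
    (by rw [oA]; norm_num) fun H hH hAH => ?_
  rcases H212.Cov.Om10.cases_max hQ' (not_plusOn hs) hF hH with h | ⟨D, hD, h⟩ | ⟨K, hK, h⟩ | h
  · exfalso
    refine red_dims h hAH hAH dA1 dA1 fun d h0 h10 h3 _ => ?_
    rw [hn] at h10
    simp only [Set.mem_insert_iff, Set.mem_singleton_iff] at h3
    omega
  · exfalso
    refine H212.Cov.Om10.no_decomp hD ((decompositionStabilizer D).pow_mem (h hAH) 3) (by rw [oA3]; decide)
      (H212.Cov.Om10.Dims.mono dA ?_)
    intro d hd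
    simp only [Set.mem_insert_iff, Set.mem_singleton_iff, Set.mem_ofPred_eq] at hd ⊢
    omega
  · exact Or.inl ⟨K, hK, h⟩
  · exact absurd oA (H212.Cov.Om10.residual hR hQ' (not_plusOn hs) hF hH h hAH).2

end Cfsg.Agent.H637.Spr
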