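import Cfsg.Agent.H637.Spr.Small

/-!
# S3938: `Ω⁻₁₂(2)` (helper637)

`spr_minus_twelve` : `neg 6` (order 65), at most two maximal overgroups, normalising fields of degrees 2 and 3.
-/

set_option autoImplicit false
set_option linter.unusedSectionVars false
set_option linter.style.haveILetI false

namespace Cfsg.Agent.H637.Spr

open Module Cfsg Cfsg.Geo QuadraticMap
open Cfsg.Agent.LieClassical.OrthCore Cfsg.Agent.LieClassical.OrthForms
open Cfsg.Agent.H182.Sign
open Cfsg.Agent.H383.Cov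
open Cfsg.Agent.H278.Cov (Red Ext Num)
open Cfsg.Agent.H989.Cov (ResM ResP)
open scoped MatrixGroups Matrix Pointwise

variable {ι : Type} [Fintype ι] [DecidableEq ι] {F : Type} [Field F] [Fintype F]

/-- an irreducible element of order `N`, with a power of order `M` which is a block -/
theorem exists_irr {Q : QuadraticForm F (ι → F)} {a : ℕ} (hQ : Sg Q a (-1)) (ha : 3 ≤ a) {N c M : ℕ} (hN : N = c * M)
    (hd : N ∣ Fintype.card F ^ a + 1) (hNo : Odd N) (hM : ∀ j, 1 ≤ j → j < 2 * a → ¬ M ∣ Fintype.card F ^ j - 1)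
    (hB : H989.Cov.Bn (Nat.card F) (2 * a) M) (hc : c ≠ 0) :
    ∃ A : GL ι F, A ∈ omegaGL ⇑Q ∧ orderOf A = N ∧ (orderOf (A ^ c) = M ∧ Blk (2 * a) (A ^ c)) ∧ Dims A {0, 2 * a} := by
  obtain ⟨L, _, _, _, Q', u, s1, s2, s3, s4, s5⟩ := exists_negN (F := F) (k := a) (N := N) (by omega) hd
  have hfL : FiniteDimensional F L := Module.Finite.of_finite
  have hp : (LinearMap.mulLeft F u : Module.End F L) ^ N = 1 := by
    rw [mulLeft_pow, mulLeft_eq_one, ← s3, pow_orderOf_eq_one]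
  have hcard : Fintype.card ι = 2 * a := sg_card hQ
  obtain ⟨A, hA, hsim⟩ := exists_sim hQ (by omega) s1 (x := LinearMap.mulLeft F u) (M := N) (fun v => s5 v) hNo hp
  have huc : orderOf (u ^ c) = M := by
    rw [orderOf_pow_of_dvd hc (by rw [s3, hN]; exact dvd_mul_right c M), s3, hN, Nat.mul_div_cancel_left _ (by omega)]
  have hsc := hsim.pow c
  rw [mulLeft_pow] at hsc
  refine ⟨A, hA, by rw [hsim.orderOf_eq, orderOf_mulLeft, s3], H989.Cov.blk_of_mul hB huc s2 hsc, hsim.dims fun W hW => ?_⟩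
  refine H989.Cov.mul_case s3 s2 s4 (fun j h1 h2 h3 => ?_) hW
  rw [Nat.card_eq_fintype_card] at h3
  exact hM j h1 h2 ((dvd_trans (by rw [hN]; exact dvd_mul_left M c) h3))

/-- no permutation of 13 letters has order 65 -/
theorem perm_65 (σ : Equiv.Perm (Fin 13)) : orderOf σ ≠ 65 := by
  intro h
  have hsum : σ.cycleType.sum ≤ 13 := by
    rw [Equiv.Perm.sum_cycleType]
    exact (Finset.card_le_univ _).trans (by rw [Fintype.card_fin])
  have hdvd : ∀ p : ℕ, p.Prime → p ∣ 65 → ∃ n ∈ σ.cycleType, p ∣ n := by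
    intro p hp hd
    rw [← h, ← Equiv.Perm.lcm_cycleType] at hd
    exact H212.Cov.Om10.exists_dvd_of_lcm hp _ hd
  obtain ⟨a, ha, ha13⟩ := hdvd 13 (by norm_num) (by norm_num)
  obtain ⟨b, hb, hb5⟩ := hdvd 5 (by norm_num) (by norm_num)
  have ha2 := Equiv.Perm.two_le_of_mem_cycleType ha
  have hb2 := Equiv.Perm.two_le_of_mem_cycleType hb
  have hale : a ≤ 13 := (Multiset.le_sum_of_mem ha).trans hsum
  have ha' : a = 13 := by omega
  subst ha'
  have hne : b ≠ 13 := by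
    rintro rfl
    omega
  obtain ⟨s, hs⟩ := Multiset.exists_cons_of_mem ha
  rw [hs, Multiset.mem_cons] at hb
  have hb' := Multiset.le_sum_of_mem (hb.resolve_left hne)
  rw [hs, Multiset.sum_cons] at hsum
  omega

theorem spr_minus_twelve (hres : ∀ Q : QuadraticForm F (Fin 12 → F), Sg Q 6 (-1) → ResM ⇑Q)
    (hF : Fintype.card F = 2) {a b : F} (hab : ∀ z₁ z₂ : F, z₁ ^ 2 + a * z₁ * z₂ + b * z₂ ^ 2 = 0 → z₁ = 0 ∧ z₂ = 0) :
    H424.Spr.Spr (POmega F (quadFormMinus 5 F a b)) := by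
  have hsim : IsSimpleGroup (POmega F ⇑(minusForm 5 F a b)) := by
    rw [coe_minusForm]
    exact S0297.result (F := F) 6 (by norm_num) a b hab
  let e : (Fin 5 ⊕ Fin 5) ⊕ Fin 2 ≃ Fin 12 := Fintype.equivFinOfCardEq (by simp)
  let j : ((Fin 5 ⊕ Fin 5) ⊕ Fin 2 → F) ≃ₗ[F] (Fin 12 → F) := LinearEquiv.funCongrLeft F F e.symm
  let Q : QuadraticForm F (Fin 12 → F) :=
    (minusForm 5 F a b).comp (j.symm : (Fin 12 → F) →ₗ[F] ((Fin 5 ⊕ Fin 5) ⊕ Fin 2 → F))
  have hs : Sg Q 6 (-1) := (sg_minusForm (F := F) 5 hab).congr j fun v => by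
    change minusForm 5 F a b (j.symm (j v)) = _
    rw [j.symm_apply_apply]
  rw [← coe_minusForm]
  refine spr_of_form hF (by norm_num) (sg_minusForm 5 hab) hsim hs fun hs1 hna => ?_
  have hn : Fintype.card (Fin 12) = 12 := Fintype.card_fin 12
  have hQ' : IsNondegenerateQuadraticForm ⇑Q := isNondeg hs.nondeg
  have hm := not_plusOn hs
  have h5 : 5 ≤ Fintype.card (Fin 12) := by rw [hn]; norm_num
  obtain ⟨A, hA, oA, ⟨o5, b5⟩, dA⟩ := exists_irr hs (by norm_num) (N := 65) (c := 5) (M := 13) (by norm_num)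
    (by rw [hF]; norm_num) (by decide) (by
      rw [hF]
      intro j h1 h2
      interval_cases j <;> decide) (H989.Cov.bn_of hF H989.Cov.bn_13) (by norm_num)
  have bA : H989.Cov.Bp 12 (A ^ 5) := ⟨by rw [o5]; norm_num, by rw [o5]; norm_num, b5⟩
  refine spr_of_irr hna hQ' h5 hA (by rw [hn]; exact dA) (r₁ := 2) (r₂ := 3) le_rfl (by norm_num) (by rw [oA]; norm_num)
    (by rw [oA]; norm_num) fun H hH hAH => ?_
  rcases H989.Cov.cases_minus hF hQ' hm hH with (h | ⟨t, m, D, ht, hm', hD, h⟩ | ⟨r, K, hr, hK, h⟩) | h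
  · exfalso
    refine red_dims h hAH hAH dA dA fun d h0 h10 h3 _ => ?_
    rw [hn] at h10
    simp only [Set.mem_insert_iff, Set.mem_singleton_iff] at h3
    omega
  · exact (H989.Cov.kill_dec (by norm_num) bA (H.pow_mem hAH 5) ht hm' hD h).elim
  · rcases hr with rfl | rfl
    · exact Or.inl ⟨K, hK, h⟩
    · exact Or.inr ⟨K, hK, h⟩
  · exfalso
    obtain ⟨P, hP, ⟨⟨e⟩⟩ | ⟨⟨e⟩⟩⟩ := hres Q hs H hH h
    · obtain ⟨y, hy⟩ := H989.Cov.res_order hF hP e hAH
      have h1 := (orderOf_dvd_natCard y).trans H989.Cov.card_aut_l33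
      rw [hy, oA] at h1
      exact absurd h1 (by decide)
    · obtain ⟨y, hy⟩ := H989.Cov.res_order hF hP e hAH
      obtain ⟨σ, rfl⟩ := (S2119.result 13 (by norm_num) (by norm_num)).2 y
      rw [orderOf_injective _ (S2119.result 13 (by norm_num) (by norm_num)).1] at hy
      exact perm_65 σ (hy.trans oA)

end Cfsg.Agent.H637.Spr
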